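import Cfsg.Agent.H66.Cod.Base

/-!
# S4795 (helper78): from the codegrees to `Cov`
-/

set_option autoImplicit false

universe u v

namespace Cfsg.Agent.H78.Inc

open Cfsg Cfsg.Agent.H66.Cod Cfsg.Agent.H686.CharKit Cfsg.Agent.H495.Cod

/-- the codegree of a nontrivial irreducible character of a simple group -/
theorem cod_eq {T : Type u} [Group T] [Finite T] [IsSimpleGroup T] (χ : IrrCharacter T) (h : (χ : T → ℂ) ≠ 1) :
    ∃ c, 1 < c ∧ Nat.card T = charDegree (χ : T → ℂ) * c ∧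
      Nat.card T / (Nat.card {g : T // (χ : T → ℂ) g = (χ : T → ℂ) 1} * charDegree (χ : T → ℂ)) = c := by
  obtain ⟨c, hc⟩ := H674.Codegree.charDegree_dvd_card χ.2
  refine ⟨c, ?_, hc, ?_⟩
  · have hlt := ker_lt χ h
    rw [card_ker_simple χ h, one_mul] at hlt
    by_contra hne
    have h2 : c ≤ 1 := by omega
    have h3 := Nat.mul_le_mul_left (charDegree (χ : T → ℂ)) h2
    rw [← hc, mul_one] at h3
    omega
  · rw [card_ker_simple χ h, one_mul, hc]
    exact Nat.mul_div_cancel_left _ (charDegree_pos χ)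

/-- from the statement to `Cov` -/
theorem exists_cov_of {S : Type u} {H : Type v} [Group S] [Group H] [Finite S] [Finite H] [IsSimpleGroup S]
    [IsSimpleGroup H]
    (hsub : ∀ χ : Cfsg.IrrCharacter S, ∃ ψ : Cfsg.IrrCharacter H,
      (Nat.card S / (Nat.card {g : S // (χ : S → ℂ) g = (χ : S → ℂ) 1} * Cfsg.charDegree (χ : S → ℂ))) =
      (Nat.card H / (Nat.card {g : H // (ψ : H → ℂ) g = (ψ : H → ℂ) 1} * Cfsg.charDegree (ψ : H → ℂ)))) :
    ∃ k, Cov S H k := by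
  refine exists_cov fun χ hχ => ?_
  obtain ⟨ψ, hψ⟩ := hsub χ
  obtain ⟨c, hc1, hc, hc2⟩ := cod_eq χ hχ
  rw [hc2] at hψ
  have hψ1 : (ψ : H → ℂ) ≠ 1 := by
    intro h2
    rw [h2, card_ker_one, charDegree_one, mul_one, Nat.div_self Nat.card_pos] at hψ
    omega
  refine ⟨ψ, hψ1, ?_⟩
  obtain ⟨e, -, he, he2⟩ := cod_eq ψ hψ1
  rw [he2] at hψ
  subst hψ
  rw [hc, he]
  ring

end Cfsg.Agent.H78.Inc
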