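import Cfsg.Agent.H66.Cod.Base
import Cfsg.Agent.H677.CodIso
import Cfsg.Agent.OrdDiv.Main

/-!
# S4795 (helper78): `k = 1`, the easy directions

* `not_cov_a8` : `cd(A₈)` is not contained in `cd(L₃(4))` (degree 7)
* `not_cov_psp` : `cd(PSp_{2n}(q))` is not contained in `cd(Ω_{2n+1}(q))`, `q` odd, `n ≥ 3` (Weil characters)
-/

set_option autoImplicit false

universe u v

namespace Cfsg.Agent.H78.Inc

open Cfsg Cfsg.Agent.H66.Cod Cfsg.Agent.H677 Cfsg.Agent.H677.CodMultiset Cfsg.Agent.H677.CodIso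

theorem ndeg_congr {G : Type u} {H : Type v} [Group G] [Group H] (e : G ≃* H) {d : ℕ} (h : NDeg H d) : NDeg G d := by
  obtain ⟨χ, hχ, rfl⟩ := h
  refine ⟨pull e χ, fun h1 => hχ ?_, charDegree_pull e χ⟩
  funext x
  have h2 := congrFun h1 (e.symm x)
  rw [pull_apply, e.apply_symm_apply] at h2
  exact h2

theorem one_ne {G : Type u} [Group G] [Finite G] {χ : IrrCharacter G} (h : (χ : G → ℂ) ≠ 1) :
    χ ≠ CodMultiset.one G := fun h1 => h (congrArg Subtype.val h1)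

theorem not_cov_a8 {S : Type u} {H : Type v} [Group S] [Group H] [Finite S] [Finite H] [IsSimpleGroup S]
    [IsSimpleGroup H] (hS : OrdDiv.Real (.alt 8) S) (hH : OrdDiv.Real (.psl 3 4) H) : ¬ Cov S H 1 := by
  intro h
  obtain ⟨e⟩ := hS
  obtain ⟨F, _, _, hF, ⟨e'⟩⟩ := hH
  obtain ⟨χ, hχ⟩ := FusedDeg.alt_deg (n := 8) (by norm_num)
  have h1 : NDeg ↥(alternatingGroup (Fin 8)) 7 := by
    refine ⟨χ, fun h2 => ?_, hχ⟩
    have h3 : charDegree (χ : ↥(alternatingGroup (Fin 8)) → ℂ) = 1 := by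
      rw [h2]
      simp [charDegree]
    omega
  obtain ⟨ψ, hψ, h2⟩ := h.deg 7 (ndeg_congr e h1)
  have h3 := PslThree.charDegree_ge e' ψ (one_ne hψ)
  rw [h2, Nat.card_eq_fintype_card, hF] at h3
  norm_num at h3

theorem two_ne_of_odd {F : Type} [Field F] [Fintype F] (hF : Odd (Fintype.card F)) : (2 : F) ≠ 0 := by
  intro h0
  obtain ⟨p, hp⟩ := CharP.exists F
  have hp0 : p.Prime := CharP.char_is_prime F p
  have := Fact.mk hp0
  obtain ⟨k, -, hk⟩ := FiniteField.card F p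
  have h3 : p ∣ 2 := by
    rw [← CharP.cast_eq_zero_iff F p]
    exact_mod_cast h0
  have h4 : p = 2 := (Nat.prime_dvd_prime_iff_eq hp0 Nat.prime_two).1 h3
  rw [hk, h4] at hF
  exact (Nat.not_odd_iff_even.2 ((Nat.even_pow.2 ⟨even_two, k.ne_zero⟩))) hF

theorem not_cov_psp {S : Type u} {H : Type v} [Group S] [Group H] [Finite S] [Finite H] [IsSimpleGroup S]
    [IsSimpleGroup H] {n q : ℕ} (hn : 3 ≤ n) (hq : Odd q) (hS : OrdDiv.Real (.psp n q) S)
    (hH : OrdDiv.Real (.oodd n q) H) : ¬ Cov S H 1 := by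
  intro h
  obtain ⟨F, _, _, hF, ⟨e⟩⟩ := hS
  obtain ⟨F', _, _, hF', ⟨e'⟩⟩ := hH
  have h2 : (2 : F) ≠ 0 := two_ne_of_odd (by rw [hF]; exact hq)
  have h2' : (2 : F') ≠ 0 := two_ne_of_odd (by rw [hF']; exact hq)
  have hq3 : 3 ≤ q := by
    have h1 : 1 < Fintype.card F := Fintype.one_lt_card
    obtain ⟨k, hk⟩ := hq
    omega
  have hqn : 27 ≤ q ^ n := by
    calc 27 = 3 ^ 3 := by norm_num
      _ ≤ q ^ 3 := Nat.pow_le_pow_left hq3 3
      _ ≤ q ^ n := Nat.pow_le_pow_right (by omega) hn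
  obtain ⟨χ, hχ⟩ := WeilIrr.exists_irr_psp (F := F) (n := n) (by omega) h2
  rw [Nat.card_eq_fintype_card, hF] at hχ
  have h1 : NDeg (PSp n F) (charDegree (χ : PSp n F → ℂ)) := by
    refine ⟨χ, fun h2 => ?_, rfl⟩
    have h3 : charDegree (χ : PSp n F → ℂ) = 1 := by
      rw [h2]
      simp [charDegree]
    rcases hχ with h | h <;> omega
  obtain ⟨ψ, hψ, h3⟩ := h.deg _ (ndeg_congr e h1)
  have h4 := OmegaIrr.charDegree_ge_odd (by omega) h2' e' ψ (one_ne hψ)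
  rw [h3, one_mul, Nat.card_eq_fintype_card, hF'] at h4
  have h5 : q ^ n ≤ q ^ (2 * n - 3) := Nat.pow_le_pow_right (by omega) (by omega)
  rcases hχ with h | h <;> omega

end Cfsg.Agent.H78.Inc
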