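import Cfsg.Agent.H78.Inc.Uniq
import Cfsg.Agent.H78.Inc.One
import Cfsg.Agent.H66.Cod.Exc
import Cfsg.Agent.H495.Cod.Final
import Cfsg.Agent.H902.Nice
import Cfsg.Agent.OrdDiv.Table

/-!
# S4795 (helper78): the assembly

`main` : from the pieces (`Pieces`) to the theorem.
-/

set_option autoImplicit false
set_option linter.unusedSectionVars false

universe u v

namespace Cfsg.Agent.H78.Inc

open Cfsg Cfsg.Agent.H902 Cfsg.Agent.H902.Names Cfsg.Agent.H66.Cod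

/-! ### the statements of the pieces -/

/-- same characteristic -/
def SameOne : Prop := ∀ {X Y : Art.Sh} {p f g N M k : ℕ}, Art.Real X p f N → Art.Real Y p g M → N = k * M →
  k = Art.P p k → k = 1

/-- different characteristics -/
def CrossOne : Prop := ∀ {X Y : Art.Sh} {p r f g N M k : ℕ}, Art.Real X p f N → X ≠ .L 2 → X ≠ .L 3 → X ≠ .U 3 →
  Art.Real Y r g M → r ≠ p → N = k * M → k * Art.P r M ^ 2 < M → k = 1

/-- `H = U₃(q)` -/
def CrossU : Prop := ∀ {Y : Art.Sh} {p r f g N M k : ℕ}, Art.Real (.U 3) p f N → Art.Real Y r g M → r ≠ p →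
  N = k * M → k * Art.P r M ^ 2 < M → k = 1 ∨ (N = 62400 ∧ p = 2 ∧ k = 8)

def KillU : Prop := ∀ {S : Type u} {H : Type v} [Group S] [Group H] [Finite S] [Finite H] [IsSimpleGroup S]
  [IsSimpleGroup H] {k : ℕ}, Cov S H k → Nat.card H = 62400 → k = 8 → UniqDZ 2 H → IsKnownSimple' S → False

/-- `H = L₂(q)`, `L₃(q)` -/
def SmallIso : Prop := ∀ {S : Type u} {H : Type v} [Group S] [Group H] [Finite S] [Finite H] [IsSimpleGroup S]
  [IsSimpleGroup H], (¬ ∀ a b : S, a * b = b * a) → IsKnownSimple' S → ∀ {k : ℕ}, Cov S H k → ∀ {n : ℕ}, n = 2 ∨ n = 3 →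
  ∀ {F : Type} [Field F] [Fintype F], Nonempty (H ≃* Matrix.ProjectiveSpecialLinearGroup (Fin n) F) →
    Nonempty (S ≃* H)

/-- `S = A_m`, `H` of Lie type -/
def AltNum : Prop := ∀ {X : Art.Sh} {p f N m k : ℕ}, Art.Real X p f N → X ≠ .L 2 → X ≠ .L 3 → 5 ≤ m → p ≤ m →
  2 * N = k * m.factorial → k * (2 * (m - 1) ^ 2) < m.factorial → k < 2 ^ (m - 2) →
  (m = 7 ∧ k = 8) ∨ (m = 8 ∧ k = 1) ∨ (m = 9 ∧ k = 8) ∨ (m = 9 ∧ k = 18) ∨ (m = 10 ∧ k = 96)

def AltKill : Prop := ∀ {S : Type u} {H : Type v} [Group S] [Group H] [Finite S] [Finite H] [IsSimpleGroup S]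
  [IsSimpleGroup H] {k m : ℕ}, Cov S H k → Nonempty (S ≃* alternatingGroup (Fin m)) →
  (m = 7 ∧ k = 8) ∨ (m = 9 ∧ k = 8) ∨ (m = 9 ∧ k = 18) ∨ (m = 10 ∧ k = 96) ∨ (m = 8 ∧ k = 22) ∨
      (m = 8 ∧ k = 30) ∨ (m = 11 ∧ k = 45) ∨ (m = 13 ∧ k = 144) → False

/-- `S` sporadic or Tits, `H` of Lie type -/
def SporLie : Prop := ∀ {S : Type u} {H : Type v} [Group S] [Group H] [Finite S] [Finite H] [IsSimpleGroup S]
  [IsSimpleGroup H], Lie.IsoTits S ∨ IsSporadicGroup S → ∀ {k : ℕ}, Cov S H k → ∀ {X : Art.Sh} {p f : ℕ},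
  Art.Real X p f (Nat.card H) → X ≠ .L 2 → X ≠ .L 3 → p ∣ Nat.card S → False

/-- `S` and `H` sporadic or Tits -/
def SporSpor : Prop := ∀ {S : Type u} {H : Type v} [Group S] [Group H] [Finite S] [Finite H] [IsSimpleGroup S]
  [IsSimpleGroup H], Lie.IsoTits S ∨ IsSporadicGroup S → Lie.IsoTits H ∨ IsSporadicGroup H → ∀ {k : ℕ},
  Cov S H k → k = 1

/-- `S` of Lie type, `H` sporadic or Tits -/
def LieSpor : Prop := ∀ {Y : Art.Sh} {r g N M k : ℕ}, Art.Real Y r g M → N ∈ sporList → N = k * M →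
  k * Art.P r M ^ 2 < M → False

/-- `S = A_m`, `H` sporadic or Tits -/
def AltSpor : Prop := ∀ {N m k : ℕ}, N ∈ sporList → 5 ≤ m → 2 * N = k * m.factorial →
  k * (2 * (m - 1) ^ 2) < m.factorial → k < 2 ^ (m - 2) →
  (m = 8 ∧ k = 22) ∨ (m = 8 ∧ k = 30) ∨ (m = 11 ∧ k = 45) ∨ (m = 13 ∧ k = 144)

/-- `k = 1` -/
def OneL34 : Prop := ∀ {S : Type u} {H : Type v} [Group S] [Group H] [Finite S] [Finite H] [IsSimpleGroup S]
  [IsSimpleGroup H], OrdDiv.Real (.psl 3 4) S → OrdDiv.Real (.alt 8) H → ¬ Cov S H 1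

def OneOdd : Prop := ∀ {S : Type u} {H : Type v} [Group S] [Group H] [Finite S] [Finite H] [IsSimpleGroup S]
  [IsSimpleGroup H] {n q : ℕ}, 3 ≤ n → Odd q → OrdDiv.Real (.oodd n q) S → OrdDiv.Real (.psp n q) H → ¬ Cov S H 1

structure Pieces : Prop where
  same : SameOne
  cross : CrossOne
  crossU : CrossU
  killU : KillU.{u, v}
  small : SmallIso.{u, v}
  alt : AltNum
  altKill : AltKill.{u, v}
  sporLie : SporLie.{u, v}
  sporSpor : SporSpor.{u, v}
  lieSpor : LieSpor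
  altSpor : AltSpor
  l34 : OneL34.{u, v}
  odd : OneOdd.{u, v}

/-! ### the assembly -/

section

variable {S : Type u} {H : Type v} [Group S] [Group H] [Finite S] [Finite H] [IsSimpleGroup S] [IsSimpleGroup H]

/-- Artin's theorem for two groups -/
def Art1 (S : Type u) (H : Type v) [Group S] [Group H] : Prop := Nat.card S = Nat.card H → Nonempty (S ≃* H) ∨
      (OrdDiv.Real (.alt 8) S ∧ OrdDiv.Real (.psl 3 4) H) ∨ (OrdDiv.Real (.psl 3 4) S ∧ OrdDiv.Real (.alt 8) H) ∨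
      (∃ m q, 3 ≤ m ∧ Odd q ∧ OrdDiv.Real (.psp m q) S ∧ OrdDiv.Real (.oodd m q) H) ∨
      (∃ m q, 3 ≤ m ∧ Odd q ∧ OrdDiv.Real (.oodd m q) S ∧ OrdDiv.Real (.psp m q) H)

theorem of_one (P : Pieces.{u, v}) (hA : Art1 S H) {k : ℕ} (h : Cov S H k) (hk : k = 1) : Nonempty (S ≃* H) := by
  subst hk
  rcases hA (by rw [h.card, one_mul]) with h1 | ⟨h1, h2⟩ | ⟨h1, h2⟩ | ⟨m, q, hm, hq, h1, h2⟩ | ⟨m, q, hm, hq, h1, h2⟩
  · exact h1
  · exact (not_cov_a8 h1 h2 h).elim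
  · exact (P.l34 h1 h2 h).elim
  · exact (not_cov_psp hm hq h1 h2 h).elim
  · exact (P.odd hm hq h1 h2 h).elim

/-- the numbers of the alternating case -/
theorem alt_data {k m : ℕ} (h : Cov S H k) (hL : ¬ ∀ a b : H, a * b = b * a) (hm : 5 ≤ m)
    (e : S ≃* alternatingGroup (Fin m)) : 2 * Nat.card H = k * m.factorial ∧ 2 * Nat.card S = m.factorial ∧
      k * (2 * (m - 1) ^ 2) < m.factorial ∧ k < 2 ^ (m - 2) := by
  have hc : 2 * Nat.card S = m.factorial := by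
    rw [Nat.card_congr e.toEquiv]
    exact H495.Cod.two_mul_aN (by omega)
  have h2 := h.lt_classes
  have h3 : Nat.card (ConjClasses S) = Nat.card (ConjClasses (alternatingGroup (Fin m))) := by
    have hf1 : Function.Surjective (ConjClasses.map e.toMonoidHom) := ConjClasses.map_surjective e.surjective
    have hf2 : Function.Surjective (ConjClasses.map e.symm.toMonoidHom) :=
      ConjClasses.map_surjective e.symm.surjective
    exact le_antisymm (Nat.card_le_card_of_surjective _ hf2) (Nat.card_le_card_of_surjective _ hf1)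
  obtain ⟨h4, h5⟩ := S4198.result m hm
  have hd : NDeg S (m - 1) := by
    obtain ⟨ψ, hψ, hψ1⟩ := H621.SymDeg.alt_irr hm e
    have hdeg : charDegree ψ = m - 1 := by
      rw [charDegree, hψ1, Complex.natCast_re, Nat.floor_natCast]
    refine ⟨⟨ψ, hψ⟩, ?_, hdeg⟩
    rintro (rfl : ψ = 1)
    rw [H495.Cod.charDegree_one] at hdeg
    omega
  have h6 := h.lt hL hd
  refine ⟨by rw [h.card, ← hc]; ring, hc, ?_, by omega⟩
  rw [← hc]
  calc k * (2 * (m - 1) ^ 2) = 2 * (k * (m - 1) ^ 2) := by ring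
    _ < _ := by omega

/-- `H` of Lie type -/
theorem lie_case (P : Pieces.{u, v}) (hA : Art1 S H) (hS : ¬ ∀ a b : S, a * b = b * a) (hH : ¬ ∀ a b : H, a * b = b * a)
    (hK : IsKnownSimple' S) {p : ℕ} (hp : p.Prime) (hL : IsLieTypeChar p H) {k : ℕ} (h : Cov S H k) :
    Nonempty (S ≃* H) := by
  obtain ⟨g, X, f, hg, hR, hX⟩ := H364.LieNam.lie_nam OrdDiv.table hp hL
  have hu : UniqDZ p H := uniqDZ_lie hp hL
  have hpS : p ∣ Nat.card S := h.dvd_card hS hu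
  by_cases hX2 : X = .L 2
  · subst hX2
    obtain ⟨F, _, _, _, hF⟩ : ∃ (F : Type) (_ : Field F) (_ : Fintype F), Fintype.card F = p ^ f ∧
        Nonempty (H ≃* Matrix.ProjectiveSpecialLinearGroup (Fin 2) F) := by
      cases hg
      exact hR
    exact P.small hS hK h (Or.inl rfl) hF
  by_cases hX3 : X = .L 3
  · subst hX3
    obtain ⟨F, _, _, _, hF⟩ : ∃ (F : Type) (_ : Field F) (_ : Fintype F), Fintype.card F = p ^ f ∧
        Nonempty (H ≃* Matrix.ProjectiveSpecialLinearGroup (Fin 3) F) := by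
      cases hg
      exact hR
    exact P.small hS hK h (Or.inr rfl) hF
  rcases PreUniq.known_cases hK with h1 | h1 | ⟨r, hr, h1⟩ | h1 | h1
  · exfalso
    have : Fact (Nat.card S).Prime := ⟨h1⟩
    have : IsCyclic S := isCyclic_of_prime_card (p := Nat.card S) rfl
    exact hS fun a b => (IsCyclic.isMulCommutative (α := S)).is_comm.comm a b
  · obtain ⟨m, hm, ⟨e⟩⟩ := h1
    obtain ⟨h2, h3, h4, h5⟩ := alt_data h hH hm e
    have hpm : p ≤ m := (hp.dvd_factorial).1 (hpS.trans ⟨2, by rw [← h3, mul_comm]⟩)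
    rcases P.alt hX hX2 hX3 hm hpm h2 h4 h5 with h6 | ⟨h6, h7⟩ | h6 | h6 | h6
    · exact (P.altKill h ⟨e⟩ (Or.inl h6)).elim
    · exact of_one P hA h h7
    · exact (P.altKill h ⟨e⟩ (Or.inr (Or.inl h6))).elim
    · exact (P.altKill h ⟨e⟩ (Or.inr (Or.inr (Or.inl h6)))).elim
    · exact (P.altKill h ⟨e⟩ (Or.inr (Or.inr (Or.inr (Or.inl h6))))).elim
  · obtain ⟨g', Y, f', hg', hR', hY⟩ := H364.LieNam.lie_nam OrdDiv.table hr h1
    have hst := ndeg_steinberg hr h1 (dvd_card_lie hr h1)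
    have h3 := h.lt hH hst
    by_cases hrp : r = p
    · subst hrp
      exact of_one P hA h (P.same hX hY h.card (h.same hr hu hst))
    · by_cases hXU : X = .U 3
      · subst hXU
        rcases P.crossU hX hY hrp h.card h3 with h4 | ⟨h4, h5, h6⟩
        · exact of_one P hA h h4
        · subst h5
          exact (P.killU h h4 h6 hu hK).elim
      · exact of_one P hA h (P.cross hX hX2 hX3 hXU hY hrp h.card h3)
  · exact (P.sporLie (Or.inl h1) h hX hX2 hX3 hpS).elim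
  · exact (P.sporLie (Or.inr h1) h hX hX2 hX3 hpS).elim

/-- `H` sporadic or the Tits group -/
theorem spor_case (P : Pieces.{u, v}) (hA : Art1 S H) (hS : ¬ ∀ a b : S, a * b = b * a) (hH : ¬ ∀ a b : H, a * b = b * a)
    (hK : IsKnownSimple' S) (hL : Lie.IsoTits H ∨ IsSporadicGroup H) {k : ℕ} (h : Cov S H k) :
    Nonempty (S ≃* H) := by
  have hN := H495.Cod.spor_card hL
  rcases PreUniq.known_cases hK with h1 | h1 | ⟨r, hr, h1⟩ | h1 | h1
  · exfalso
    have : Fact (Nat.card S).Prime := ⟨h1⟩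
    have : IsCyclic S := isCyclic_of_prime_card (p := Nat.card S) rfl
    exact hS fun a b => (IsCyclic.isMulCommutative (α := S)).is_comm.comm a b
  · obtain ⟨m, hm, ⟨e⟩⟩ := h1
    obtain ⟨h2, h3, h4, h5⟩ := alt_data h hH hm e
    exfalso
    rcases P.altSpor hN hm h2 h4 h5 with h6 | h6 | h6 | h6
    · exact P.altKill h ⟨e⟩ (Or.inr (Or.inr (Or.inr (Or.inr (Or.inl h6)))))
    · exact P.altKill h ⟨e⟩ (Or.inr (Or.inr (Or.inr (Or.inr (Or.inr (Or.inl h6))))))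
    · exact P.altKill h ⟨e⟩ (Or.inr (Or.inr (Or.inr (Or.inr (Or.inr (Or.inr (Or.inl h6)))))))
    · exact P.altKill h ⟨e⟩ (Or.inr (Or.inr (Or.inr (Or.inr (Or.inr (Or.inr (Or.inr h6)))))))
  · obtain ⟨g', Y, f', hg', hR', hY⟩ := H364.LieNam.lie_nam OrdDiv.table hr h1
    have hst := ndeg_steinberg hr h1 (dvd_card_lie hr h1)
    exact (P.lieSpor hY hN h.card (h.lt hH hst)).elim
  · exact of_one P hA h (P.sporSpor (Or.inl h1) hL h)
  · exact of_one P hA h (P.sporSpor (Or.inr h1) hL h)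

/-- `H = A_n` -/
theorem alt_case (hS : ¬ ∀ a b : S, a * b = b * a) (hK : IsKnownSimple' S) {n : ℕ} (hn : 5 ≤ n)
    (e : H ≃* alternatingGroup (Fin n)) {k : ℕ} (h : Cov S H k) : Nonempty (S ≃* H) := by
  have h1 : H495.Cod.CodOK n S := by
    intro χ hχ
    obtain ⟨θ, hθ, hθd⟩ := ndeg_congr e.symm (h.deg _ ⟨χ, hχ, rfl⟩)
    refine ⟨_, ⟨θ, hθ, hθd⟩, ?_⟩
    rw [H495.Cod.card_ker_simple χ hχ, H495.Cod.aN, ← Nat.card_congr e.toEquiv, h.card]
    ring
  obtain ⟨e'⟩ := H495.Cod.simple_iso hn hS hK h1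
  exact ⟨e'.trans e.symm⟩

/-- **The assembly.** -/
theorem main (P : Pieces.{u, v}) (hA : Art1 S H) (hS : ¬ ∀ a b : S, a * b = b * a) (hH : ¬ ∀ a b : H, a * b = b * a)
    (hKS : IsKnownSimple' S) (hKH : IsKnownSimple' H) {k : ℕ} (h : Cov S H k) : Nonempty (S ≃* H) := by
  rcases PreUniq.known_cases hKH with h1 | h1 | ⟨r, hr, h1⟩ | h1 | h1
  · exfalso
    have : Fact (Nat.card H).Prime := ⟨h1⟩
    have : IsCyclic H := isCyclic_of_prime_card (p := Nat.card H) rfl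
    exact hH fun a b => (IsCyclic.isMulCommutative (α := H)).is_comm.comm a b
  · obtain ⟨n, hn, ⟨e⟩⟩ := h1
    exact alt_case hS hKS hn e h
  · exact lie_case P hA hS hH hKS hr h1 h
  · exact spor_case P hA hS hH hKS (Or.inl h1) h
  · exact spor_case P hA hS hH hKS (Or.inr h1) h

end

end Cfsg.Agent.H78.Inc
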