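import Cfsg.Agent.H78.Inc.OmCount
import Cfsg.Agent.H78.Inc.One
import Cfsg.Agent.H677.OmegaIrr
import Cfsg.Agent.AutOrth.Gen

/-!
# S4795 (helper78): a small character of `Ω_{2m+1}(q)`, `q` odd, `m ≥ 2`

* `omega_deg` : `PΩ_{2m+1}(q)` has a nontrivial irreducible character of degree `d`,
  `(q² - 1) d ≤ q^{2m} - 1`.
-/

set_option autoImplicit false
set_option linter.unusedSectionVars false

universe u v

namespace Cfsg.Agent.H78.Inc.Om

open Cfsg Cfsg.Agent.H66.Cod Cfsg.Agent.H686.CharKit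
open Cfsg.Agent.LieClassical.OrthCore Cfsg.Agent.LieClassical.OrthTrans
open Cfsg.Agent.LieClassical.QuadForms
open QuadraticMap Module

/-- A character without trivial constituent has a nontrivial constituent. -/
theorem exists_irr_of_char {G : Type u} [Group G] [Fintype G] {α : G → ℂ} (hα : IsCharacter G α) (h0 : α 1 ≠ 0)
    (hs : ∑ g, α g = 0) : ∃ χ : IrrCharacter G, (χ : G → ℂ) ≠ 1 ∧ charDegree (χ : G → ℂ) ≤ charDegree α := by
  classical
  have : Finite (IrrCharacter G) := Characters.Core.finite_irr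
  have : Fintype (IrrCharacter G) := Fintype.ofFinite _
  obtain ⟨m, hm, hd⟩ := H678.Constit.exists_decomp hα
  have h1 : m (H677.CodMultiset.one G) = 0 := by
    have h2 := Characters.Core.classInner_sum_nsmul_irr m (H677.CodMultiset.one G)
    rw [← hm, Characters.Core.classInner_def] at h2
    have h3 : ∑ g : G, α g * (starRingEnd ℂ) ((H677.CodMultiset.one G : G → ℂ) g) = 0 := by
      rw [← hs]
      refine Finset.sum_congr rfl fun g _ => ?_
      have : ((H677.CodMultiset.one G : IrrCharacter G) : G → ℂ) g = 1 := rfl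
      rw [this, map_one, mul_one]
    rw [h3, mul_zero] at h2
    exact_mod_cast h2.symm
  obtain ⟨ψ, hψ⟩ : ∃ ψ : IrrCharacter G, m ψ ≠ 0 := by
    by_contra hcon
    push Not at hcon
    apply h0
    rw [hm, Finset.sum_apply]
    refine Finset.sum_eq_zero fun ψ _ => ?_
    rw [hcon ψ, zero_smul]
    rfl
  refine ⟨ψ, fun h => hψ ?_, ?_⟩
  · have : ψ = H677.CodMultiset.one G := Subtype.ext h
    rw [this, h1]
  · rw [hd]
    calc charDegree (ψ : G → ℂ) ≤ m ψ * charDegree (ψ : G → ℂ) := Nat.le_mul_of_pos_left _ (Nat.pos_of_ne_zero hψ)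
      _ ≤ _ := Finset.single_le_sum (f := fun ψ : IrrCharacter G => m ψ * charDegree (ψ : G → ℂ))
        (fun _ _ => Nat.zero_le _) (Finset.mem_univ ψ)

variable {F : Type v} {V : Type u} [Field F] [Fintype F] [DecidableEq F] [AddCommGroup V] [Module F V]
  {Q : QuadraticForm F V}

/-- the action of `E Q` on the singular vectors -/
def actE (Q : QuadraticForm F V) : ↥(E Q) →* Equiv.Perm (Sg Q) where
  toFun g := act g.1 (E_le_O g.2)
  map_one' := by
    ext v
    rfl
  map_mul' g h := by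
    ext v
    rfl

theorem actE_coe (g : ↥(E Q)) (v : Sg Q) : (actE Q g v).1 = g.1 v.1 := rfl

section ker

variable [Fintype (Sg Q)] [DecidableEq V]

/-- the idempotent kernel -/
noncomputable def ker (Q : QuadraticForm F V) (t : ℂ) (v w : Sg Q) : ℂ :=
  (((Fintype.card F : ℂ) ^ 2 - 1) * t)⁻¹ * (A Q v w + t * P Q v w)

theorem ker_mul (h2 : (2 : F) ≠ 0) (hG : Good Q) {x y : V} (hxy : Hyp Q x y) {t : ℂ} (ht : t ≠ 0)
    (hκ : S Q x x = ((Fintype.card F : ℂ) - 1) * Fintype.card F * t ^ 2)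
    (hβ : S Q x y = ((Fintype.card F : ℂ) - 1) ^ 2 * t) (v v' : Sg Q) :
    ∑ w : Sg Q, ker Q t v w * ker Q t w v' = ker Q t v v' := by
  have hq : ((Fintype.card F : ℂ) ^ 2 - 1) ≠ 0 := by
    have h1 : 1 < Fintype.card F := Fintype.one_lt_card
    have h3 : Fintype.card F ^ 2 ≠ 1 := by
      intro h
      nlinarith
    rw [sub_ne_zero]
    exact_mod_cast h3
  have h1 : ∀ w : Sg Q, ker Q t v w * ker Q t w v' = (((Fintype.card F : ℂ) ^ 2 - 1) * t)⁻¹ ^ 2 *
      (A Q v w * A Q w v' + t * (A Q v w * P Q w v') + t * (P Q v w * A Q w v') +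
        t ^ 2 * (P Q v w * P Q w v')) := by
    intro w
    unfold ker
    ring
  rw [Finset.sum_congr rfl fun w _ => h1 w, ← Finset.mul_sum, Finset.sum_add_distrib, Finset.sum_add_distrib,
    Finset.sum_add_distrib, ← Finset.mul_sum, ← Finset.mul_sum, ← Finset.mul_sum, AA h2 hG hxy, AP h2, PA, PP h2,
    hκ, hβ]
  unfold ker
  field_simp
  ring

theorem A_map (g : ↥(E Q)) (v w : Sg Q) : A Q (actE Q g v) (actE Q g w) = A Q v w := by
  unfold A
  rw [actE_coe, actE_coe, polar_map (E_le_O g.2)]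

theorem P_map (g : ↥(E Q)) (v w : Sg Q) : P Q (actE Q g v) (actE Q g w) = P Q v w := by
  unfold P
  refine Finset.sum_congr rfl fun a _ => ?_
  have h1 : ((actE Q g w).1 = a • (actE Q g v).1) ↔ w.1 = a • v.1 := by
    rw [actE_coe, actE_coe, ← map_smul]
    exact g.1.injective.eq_iff
  by_cases h : w.1 = a • v.1
  · rw [if_pos h, if_pos (h1.2 h)]
  · rw [if_neg h, if_neg (fun h3 => h (h1.1 h3))]

theorem ker_map (t : ℂ) (g : ↥(E Q)) (v w : Sg Q) : ker Q t (actE Q g v) (actE Q g w) = ker Q t v w := by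
  unfold ker
  rw [A_map, P_map]

theorem ker_scl (h2 : (2 : F) ≠ 0) (t : ℂ) (v w : Sg Q) (a : F) :
    ker Q t v (scl a w) = et a * ker Q t v w := by
  unfold ker
  rw [A_smul_right, P_scl h2]
  ring

theorem ker_zero (h2 : (2 : F) ≠ 0) (t : ℂ) (v w : Sg Q) (hv : v.1 = 0) : ker Q t v w = 0 := by
  unfold ker
  rw [P_zero h2 v w hv]
  unfold A
  rw [hv, polar_zero_left, et_zero]
  ring

/-- the main construction -/
theorem exists_irr_E (h2 : (2 : F) ≠ 0) (hG : Good Q) [Fintype ↥(E Q)] {x y : V} (hxy : Hyp Q x y) {t : ℂ}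
    (ht : t ≠ 0) (hκ : S Q x x = ((Fintype.card F : ℂ) - 1) * Fintype.card F * t ^ 2)
    (hβ : S Q x y = ((Fintype.card F : ℂ) - 1) ^ 2 * t) :
    ∃ χ : IrrCharacter ↥(E Q), (χ : ↥(E Q) → ℂ) ≠ 1 ∧
      (Fintype.card F ^ 2 - 1) * charDegree (χ : ↥(E Q) → ℂ) ≤ Fintype.card (Sg Q) - 1 := by
  have hα := H651.isCharacter_sum_perm (actE Q) (ker Q t) (ker_mul h2 hG hxy ht hκ hβ) (ker_map t)
  set α : ↥(E Q) → ℂ := fun g => ∑ v, ker Q t v (actE Q g v) with hαd
  have hq1 : 1 < Fintype.card F := Fintype.one_lt_card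
  have hq : ((Fintype.card F : ℂ) ^ 2 - 1) ≠ 0 := by
    have h3 : Fintype.card F ^ 2 ≠ 1 := by
      intro h
      nlinarith
    rw [sub_ne_zero]
    exact_mod_cast h3
  have hα1 : ((Fintype.card F : ℂ) ^ 2 - 1) * α 1 = (Fintype.card (Sg Q) : ℂ) - 1 := by
    rw [hαd]
    simp only [map_one, Equiv.Perm.one_apply]
    unfold ker
    rw [← Finset.mul_sum, Finset.sum_add_distrib, ← Finset.mul_sum, trP h2, trA]
    field_simp
    ring
  have hcard : 1 < Fintype.card (Sg Q) := by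
    rw [Fintype.one_lt_card_iff]
    refine ⟨⟨x, hxy.left⟩, ⟨0, QuadraticMap.map_zero Q⟩, fun h => hxy.left_ne (congrArg Subtype.val h)⟩
  have h0 : α 1 ≠ 0 := by
    intro h
    rw [h, mul_zero] at hα1
    have h3 : (Fintype.card (Sg Q) : ℂ) = 1 := by linear_combination -hα1
    have h4 : Fintype.card (Sg Q) = 1 := by exact_mod_cast h3
    omega
  have hs : ∑ g, α g = 0 := by
    rw [hαd, Finset.sum_comm]
    refine Finset.sum_eq_zero fun v _ => ?_
    by_cases hv : v.1 = 0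
    · exact Finset.sum_eq_zero fun g _ => ker_zero h2 t _ _ hv
    obtain ⟨a, ha, hea⟩ := et_exists h2
    obtain ⟨g0, hg0, hg0v⟩ := hG.trans_sing v.2 (scl a v).2 hv (smul_ne_zero ha hv)
    have h3 : ∑ g : ↥(E Q), ker Q t v (actE Q g v) = ∑ g : ↥(E Q), ker Q t v (actE Q (g * ⟨g0, hg0⟩) v) :=
      (Equiv.sum_comp (Equiv.mulRight (⟨g0, hg0⟩ : ↥(E Q))) fun g => ker Q t v (actE Q g v)).symm
    have h4 : ∀ g : ↥(E Q), actE Q (g * ⟨g0, hg0⟩) v = scl a (actE Q g v) := by
      intro g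
      rw [map_mul, Equiv.Perm.mul_apply]
      apply Subtype.ext
      rw [actE_coe, actE_coe, scl_coe, actE_coe]
      change g.1 (g0 v.1) = _
      rw [hg0v, scl_coe, map_smul]
    have h5 : ∑ g : ↥(E Q), ker Q t v (actE Q g v) = -∑ g : ↥(E Q), ker Q t v (actE Q g v) := by
      conv_lhs => rw [h3]
      rw [← Finset.sum_neg_distrib]
      refine Finset.sum_congr rfl fun g _ => ?_
      rw [h4, ker_scl h2, hea]
      ring
    linear_combination (1 / 2 : ℂ) * h5
  obtain ⟨χ, hχ, hd⟩ := exists_irr_of_char hα h0 hs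
  refine ⟨χ, hχ, ?_⟩
  have h6 : (Fintype.card F ^ 2 - 1) * charDegree α = Fintype.card (Sg Q) - 1 := by
    have h7 : (((Fintype.card F ^ 2 - 1) * charDegree α : ℕ) : ℂ) = ((Fintype.card (Sg Q) - 1 : ℕ) : ℂ) := by
      rw [Nat.cast_mul, charDegree_cast hα, Nat.cast_sub (Nat.one_le_pow _ _ (by omega)), Nat.cast_sub hcard.le]
      push_cast
      exact hα1
    exact_mod_cast h7
  rw [← h6]
  exact Nat.mul_le_mul_left _ hd

end ker

/-- The centre of `E Q` is trivial in odd dimension. -/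
theorem center_bot (hG : Good Q) [FiniteDimensional F V] (hodd : Odd (Module.finrank F V)) :
    Subgroup.center ↥(E Q) = ⊥ := by
  rw [Subgroup.eq_bot_iff_forall]
  intro g hg
  obtain ⟨c, hc⟩ := AutOrth.Gen.scalar_of_center hG hg
  obtain ⟨x, y, hxy⟩ := hG.exists_hyp
  have hc2 : c * c = 1 := by
    have h1 := mem_O.1 (E_le_O g.2) (x + y)
    have h3 : Q (x + y) = 1 := by rw [Q_add, hxy.left, hxy.right, hxy.pair]; ring
    rw [hc, QuadraticMap.map_smul, h3, smul_eq_mul, mul_one] at h1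
    exact h1
  have hdet : LinearEquiv.det g.1 = 1 := by
    have h1 : g.1 ∈ ⁅E Q, E Q⁆ := by rw [hG.E_perfect]; exact g.2
    have h3 : g.1 ∈ commutator (V ≃ₗ[F] V) := Subgroup.commutator_mono le_top le_top h1
    exact Abelianization.commutator_subset_ker (LinearEquiv.det (R := F) (M := V)) h3
  have h4 : (g.1 : V →ₗ[F] V) = c • LinearMap.id := by
    ext v
    exact hc v
  have h5 : c ^ Module.finrank F V = 1 := by
    have h6 := congrArg (fun u : Fˣ => (u : F)) hdet
    simp only [LinearEquiv.coe_det, Units.val_one] at h6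
    rw [h4, LinearMap.det_smul, LinearMap.det_id, mul_one] at h6
    exact h6
  obtain ⟨k, hk⟩ := hodd
  have hc1 : c = 1 := by
    rw [hk, pow_add, pow_mul, pow_two, hc2, one_pow, one_mul, pow_one] at h5
    exact h5
  apply Subtype.ext
  ext v
  rw [hc, hc1, one_smul]
  rfl

section final

variable {K : Type v} [Field K] [Fintype K] [DecidableEq K]

theorem card_W (m : ℕ) : (Fintype.card (Unit ⊕ (Fin m ⊕ Fin m) → K) : ℂ) = (Fintype.card K : ℂ) ^ (2 * m + 1) := by
  simp only [Fintype.card_pi, Finset.prod_const, Finset.card_univ, Fintype.card_sum, Fintype.card_unit,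
    Fintype.card_fin]
  push_cast
  ring

theorem exists_irr_odd (h2 : (2 : K) ≠ 0) {m : ℕ} (hm : 1 ≤ m) :
    ∃ χ : IrrCharacter ↥(E (oddForm (m + 1) K)), (χ : ↥(E (oddForm (m + 1) K)) → ℂ) ≠ 1 ∧
      (Fintype.card K ^ 2 - 1) * charDegree (χ : ↥(E (oddForm (m + 1) K)) → ℂ) ≤
        Fintype.card K ^ (2 * (m + 1)) - 1 := by
  classical
  have hG : Good (oddForm (m + 1) K) := AutOrth.Main.good_odd (by omega) h2
  let _ : Fintype (Sg (oddForm (m + 1) K)) := Fintype.ofFinite _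
  let _ : Fintype (Sg (oddForm m K)) := Fintype.ofFinite _
  have : Finite ((Unit ⊕ (Fin (m + 1) ⊕ Fin (m + 1)) → K) ≃ₗ[K] (Unit ⊕ (Fin (m + 1) ⊕ Fin (m + 1)) → K)) :=
    Finite.of_injective (fun e => (e : (Unit ⊕ (Fin (m + 1) ⊕ Fin (m + 1)) → K) →
      (Unit ⊕ (Fin (m + 1) ⊕ Fin (m + 1)) → K))) DFunLike.coe_injective
  let _ : Fintype ↥(E (oddForm (m + 1) K)) := Fintype.ofFinite _
  have hq : (Fintype.card K : ℂ) ≠ 0 := by exact_mod_cast Fintype.card_ne_zero
  have he1 : et (-1 : K) ≠ 0 := by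
    have := et_sq (F := K) (t := -1) (by simp)
    intro h
    rw [h] at this
    simp at this
  obtain ⟨χ, hχ, hd⟩ := exists_irr_E h2 hG (hyp_e (oddStep m K) (oddForm_oddStep m))
    (t := et (-1 : K) * (Fintype.card K : ℂ) ^ m) (mul_ne_zero he1 (pow_ne_zero _ hq))
    (by
      rw [kappa (oddStep m K) (oddForm_oddStep m), card_W]
      have h1 : (et (-1 : K) * (Fintype.card K : ℂ) ^ m) ^ 2 = (Fintype.card K : ℂ) ^ (2 * m) := by
        rw [mul_pow, pow_two (et (-1 : K)), et_sq (by simp), one_mul, ← pow_mul, mul_comm m 2]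
      rw [h1]
      ring)
    (by
      rw [beta (oddStep m K) (oddForm_oddStep m), T_odd h2]
      ring)
  refine ⟨χ, hχ, hd.trans ?_⟩
  have h3 : Fintype.card (Sg (oddForm (m + 1) K)) = Fintype.card K ^ (2 * (m + 1)) := by
    have := card_sg (F := K) (m + 1)
    exact_mod_cast this
  rw [h3]

end final

/-- **A small degree of `Ω_{2m+1}(q)`.** -/
theorem omega_deg {K : Type} [Field K] [Fintype K] (h2 : (2 : K) ≠ 0) {m : ℕ} (hm : 2 ≤ m) :
    ∃ d, NDeg (POmega K (quadFormOdd m K)) d ∧ (Fintype.card K ^ 2 - 1) * d ≤ Fintype.card K ^ (2 * m) - 1 := by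
  classical
  obtain ⟨m, rfl⟩ : ∃ k, m = k + 1 := ⟨m - 1, by omega⟩
  obtain ⟨χ, hχ, hd⟩ := exists_irr_odd h2 (m := m) (by omega)
  have hG : Good (oddForm (m + 1) K) := AutOrth.Main.good_odd hm h2
  have hc := center_bot hG (by
    rw [Module.finrank_fintype_fun_eq_card]
    simp only [Fintype.card_sum, Fintype.card_unit, Fintype.card_fin]
    exact ⟨m + 1, by omega⟩)
  refine ⟨_, ?_, hd⟩
  rw [← coe_oddForm]
  let e : POmega K ⇑(oddForm (m + 1) K) ≃* ↥(E (oddForm (m + 1) K)) :=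
    (AutOrth.Main.pe hG).trans ((QuotientGroup.quotientMulEquivOfEq hc).trans QuotientGroup.quotientBot)
  exact ndeg_congr e ⟨χ, hχ, rfl⟩

end Cfsg.Agent.H78.Inc.Om
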