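import Cfsg.Agent.H78.Inc.OmGeo
import Cfsg.Agent.LieClassical.QuadForms

/-!
# S4795 (helper78): the constants `κ`, `β`, `|Sg|` for the odd dimensional form
-/

set_option autoImplicit false
set_option linter.unusedSectionVars false

namespace Cfsg.Agent.H78.Inc.Om

open Cfsg.Agent.LieClassical.OrthCore Cfsg.Agent.LieClassical.OrthTrans
open Cfsg.Agent.LieClassical.QuadForms
open QuadraticMap Module

variable {F V W : Type*} [Field F] [Fintype F] [DecidableEq F] [AddCommGroup V] [Module F V] [AddCommGroup W]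
  [Module F W] {Q : QuadraticForm F V} {R : QuadraticForm F W}

theorem sum_sg [Fintype V] [Fintype (Sg Q)] (f : V → ℂ) :
    ∑ w : Sg Q, f w.1 = ∑ w : V, if Q w = 0 then f w else 0 := by
  rw [← Finset.sum_filter]
  exact (Finset.sum_subtype _ (by simp) f).symm

/-- the sum `∑ v, η(-Q v)` -/
def T (Q : QuadraticForm F V) [Fintype V] : ℂ := ∑ v : V, et (-(Q v))

section step

variable [Fintype V] [Fintype W] [Fintype (Sg Q)] [Fintype (Sg R)] (e : (W × F × F) ≃ₗ[F] V)
  (he : ∀ w c d, Q (e (w, c, d)) = R w + c * d)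

include he

theorem sum_split (f : V → ℂ) : ∑ w : Sg Q, f w.1 =
    ∑ w : W, ∑ c : F, ∑ d : F, if R w + c * d = 0 then f (e (w, c, d)) else 0 := by
  rw [sum_sg, ← Equiv.sum_comp e.toEquiv, Fintype.sum_prod_type]
  refine Finset.sum_congr rfl fun w _ => ?_
  rw [Fintype.sum_prod_type]
  refine Finset.sum_congr rfl fun c _ => Finset.sum_congr rfl fun d _ => ?_
  change (if Q (e (w, c, d)) = 0 then f (e (w, c, d)) else 0) = _
  rw [he]

omit he in
/-- solving for `d` -/
theorem sum_d {r c : F} (hc : c ≠ 0) (g : F → ℂ) :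
    ∑ d : F, (if r + c * d = 0 then g d else 0) = g (-r * c⁻¹) := by
  rw [Finset.sum_eq_single (-r * c⁻¹)]
  · rw [if_pos]
    field_simp
    ring
  · intro d _ hd
    rw [if_neg]
    intro h
    apply hd
    field_simp
    linear_combination h
  · intro h
    exact absurd (Finset.mem_univ _) h

theorem card_step : (Fintype.card (Sg Q) : ℂ) =
    (Fintype.card W : ℂ) * ((Fintype.card F : ℂ) - 1) + Fintype.card F * Fintype.card (Sg R) := by
  have h1 : (Fintype.card (Sg Q) : ℂ) = ∑ _w : Sg Q, (1 : ℂ) := by simp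
  rw [h1, sum_split e he fun _ => 1]
  have h2 : ∀ (w : W) (c : F), (∑ d : F, if R w + c * d = 0 then (1 : ℂ) else 0) =
      1 + if c = 0 then (Fintype.card F : ℂ) * (if R w = 0 then 1 else 0) - 1 else 0 := by
    intro w c
    by_cases hc : c = 0
    · subst hc
      rw [if_pos rfl]
      simp only [zero_mul, add_zero]
      by_cases hw : R w = 0
      · simp [hw]
      · simp [hw]
    · rw [if_neg hc, sum_d hc fun _ => 1, add_zero]
  have h3 : ∀ w : W, (∑ c : F, ∑ d : F, if R w + c * d = 0 then (1 : ℂ) else 0) =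
      ((Fintype.card F : ℂ) - 1) + Fintype.card F * (if R w = 0 then 1 else 0) := by
    intro w
    rw [Finset.sum_congr rfl fun c _ => h2 w c, Finset.sum_add_distrib, Finset.sum_ite_eq']
    simp
    ring
  rw [Finset.sum_congr rfl fun w _ => h3 w, Finset.sum_add_distrib, ← Finset.mul_sum, ← sum_sg fun _ => (1 : ℂ)]
  simp only [Finset.sum_const, Finset.card_univ, nsmul_eq_mul, mul_one]

theorem T_step (h2 : (2 : F) ≠ 0) : T Q = Fintype.card F * T R := by
  unfold T
  rw [← Equiv.sum_comp e.toEquiv, Fintype.sum_prod_type, Finset.mul_sum]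
  refine Finset.sum_congr rfl fun w _ => ?_
  rw [Fintype.sum_prod_type]
  have h1 : ∀ c : F, (∑ d : F, et (-(Q (e.toEquiv (w, c, d))))) =
      if c = 0 then (Fintype.card F : ℂ) * et (-(R w)) else 0 := by
    intro c
    have h3 : ∀ d : F, et (-(Q (e.toEquiv (w, c, d)))) = et (-(R w) + (-c) * d) := by
      intro d
      change et (-(Q (e (w, c, d)))) = _
      rw [he]
      congr 1
      ring
    rw [Finset.sum_congr rfl fun d _ => h3 d]
    by_cases hc : c = 0
    · subst hc
      simp
    · rw [if_neg hc]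
      have hc' : -c ≠ 0 := neg_ne_zero.2 hc
      have h4 : ∑ d : F, et (-(R w) + (-c) * d) = ∑ t : F, et t :=
        Equiv.sum_comp ((Equiv.mulLeft₀ (-c) hc').trans (Equiv.addLeft (-(R w)))) et
      rw [h4, et_sum h2]
  rw [Finset.sum_congr rfl fun c _ => h1 c, Finset.sum_ite_eq']
  simp

theorem polar_e (w w' : W) (c d c' d' : F) : polar Q (e (w, c, d)) (e (w', c', d')) =
    polar R w w' + (c * d' + c' * d) := by
  unfold polar
  rw [← map_add]
  change Q (e (w + w', c + c', d + d')) - _ - _ = _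
  rw [he, he, he]
  ring

theorem hyp_e : Hyp Q (e (0, 0, 1)) (e (0, 1, 0)) := by
  refine ⟨?_, ?_, ?_⟩
  · rw [he, QuadraticMap.map_zero]
    ring
  · rw [he, QuadraticMap.map_zero]
    ring
  · rw [polar_e e he, polar_zero_left]
    ring

theorem kappa : S Q (e (0, 0, 1)) (e (0, 0, 1)) = (Fintype.card W : ℂ) * ((Fintype.card F : ℂ) - 1) := by
  unfold S
  rw [sum_split e he fun w => et (polar Q (e (0, 0, 1)) w) * et (polar Q (e (0, 0, 1)) w)]
  have h1 : ∀ (w : W) (c : F), (∑ d : F, if R w + c * d = 0 then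
      et (polar Q (e (0, 0, 1)) (e (w, c, d))) * et (polar Q (e (0, 0, 1)) (e (w, c, d))) else 0) = et c * et c := by
    intro w c
    have h3 : ∀ d : F, polar Q (e (0, 0, 1)) (e (w, c, d)) = c := by
      intro d
      rw [polar_e e he, polar_zero_left]
      ring
    rw [Finset.sum_congr rfl fun d _ => by rw [h3 d]]
    by_cases hc : c = 0
    · subst hc
      rw [et_zero]
      simp
    · rw [sum_d hc fun _ => et c * et c]
  rw [Finset.sum_congr rfl fun w _ => Finset.sum_congr rfl fun c _ => h1 w c, sum_units_et]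
  simp only [Finset.sum_const, Finset.card_univ, nsmul_eq_mul]

theorem beta : S Q (e (0, 0, 1)) (e (0, 1, 0)) = ((Fintype.card F : ℂ) - 1) * T R := by
  unfold S
  rw [sum_split e he fun w => et (polar Q (e (0, 0, 1)) w) * et (polar Q (e (0, 1, 0)) w)]
  have h1 : ∀ (w : W) (c : F), (∑ d : F, if R w + c * d = 0 then
      et (polar Q (e (0, 0, 1)) (e (w, c, d))) * et (polar Q (e (0, 1, 0)) (e (w, c, d))) else 0) =
      (et c * et c) * et (-(R w)) := by
    intro w c
    have h3 : ∀ d : F, polar Q (e (0, 0, 1)) (e (w, c, d)) = c := by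
      intro d
      rw [polar_e e he, polar_zero_left]
      ring
    have h4 : ∀ d : F, polar Q (e (0, 1, 0)) (e (w, c, d)) = d := by
      intro d
      rw [polar_e e he, polar_zero_left]
      ring
    rw [Finset.sum_congr rfl fun d _ => by rw [h3 d, h4 d]]
    by_cases hc : c = 0
    · subst hc
      rw [et_zero]
      simp
    · rw [sum_d hc fun d => et c * et d, et_mul, et_inv hc]
      ring
  rw [Finset.sum_congr rfl fun w _ => Finset.sum_congr rfl fun c _ => h1 w c]
  unfold T
  rw [Finset.mul_sum]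
  refine Finset.sum_congr rfl fun w _ => ?_
  rw [← Finset.sum_mul, sum_units_et]

end step

/-! ### the odd form -/

theorem card_sg_zero [Fintype (Sg (oddForm 0 F))] : Fintype.card (Sg (oddForm 0 F)) = 1 := by
  rw [Fintype.card_eq_one_iff]
  refine ⟨⟨0, QuadraticMap.map_zero _⟩, fun v => Subtype.ext ?_⟩
  have h := v.2
  rw [oddForm_apply, plusForm_apply] at h
  simp only [Finset.univ_eq_empty, Finset.sum_empty, add_zero, mul_self_eq_zero] at h
  funext x
  rcases x with ⟨⟩ | (i | i)
  · exact h
  · exact i.elim0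
  · exact i.elim0

theorem T_zero : T (oddForm 0 F) = et (-1 : F) * ((Fintype.card F : ℂ) - 1) := by
  unfold T
  let u : Unique (Unit ⊕ (Fin 0 ⊕ Fin 0)) :=
    { default := .inl ()
      uniq := by
        rintro (⟨⟩ | (i | i))
        · rfl
        · exact i.elim0
        · exact i.elim0 }
  rw [← Equiv.sum_comp (Equiv.funUnique (Unit ⊕ (Fin 0 ⊕ Fin 0)) F).symm]
  rw [← sum_units_et, Finset.mul_sum]
  refine Finset.sum_congr rfl fun t _ => ?_
  rw [oddForm_apply, plusForm_apply]
  simp only [Finset.univ_eq_empty, Finset.sum_empty, add_zero]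
  rw [← et_mul, ← et_mul]
  congr 1
  change -(t * t) = _
  ring

theorem card_sg (m : ℕ) : ∀ [Fintype (Sg (oddForm m F))], (Fintype.card (Sg (oddForm m F)) : ℂ) =
    (Fintype.card F : ℂ) ^ (2 * m) := by
  induction m with
  | zero =>
    intro _
    rw [card_sg_zero]
    simp
  | succ m ih =>
    intro _
    let _ : Fintype (Sg (oddForm m F)) := Fintype.ofFinite _
    rw [card_step (oddStep m F) (oddForm_oddStep m), ih]
    simp only [Fintype.card_pi, Finset.prod_const, Finset.card_univ, Fintype.card_sum, Fintype.card_unit,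
      Fintype.card_fin]
    push_cast
    ring

theorem T_odd (h2 : (2 : F) ≠ 0) (m : ℕ) : T (oddForm m F) =
    et (-1 : F) * ((Fintype.card F : ℂ) - 1) * (Fintype.card F : ℂ) ^ m := by
  induction m with
  | zero => rw [T_zero, pow_zero, mul_one]
  | succ m ih =>
    rw [T_step (oddStep m F) (oddForm_oddStep m) h2, ih]
    ring

end Cfsg.Agent.H78.Inc.Om
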