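import Mathlib
import Cfsg.Agent.LieClassical.OrthTrans
import Cfsg.Agent.H651.StarTrace
import Cfsg.Agent.H678.Constit

/-!
# S4795 (helper78): the kernel `η(B(v, w))` on the singular vectors of an orthogonal space

`Q` nondegenerate of Witt index at least two over a finite field of odd order, `η` the quadratic character.
`A v w = η(B(v, w))` on the set `Sg Q` of the singular vectors satisfies `A A = κ P + β A`, `A P = P A = (q - 1) A`,
`P P = (q - 1) P`, where `P v w = ∑ a, η(a) [w = a v]`.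
-/

set_option autoImplicit false
set_option linter.unusedSectionVars false

namespace Cfsg.Agent.H78.Inc.Om

open Cfsg.Agent.LieClassical.OrthCore Cfsg.Agent.LieClassical.OrthTrans
open QuadraticMap Module

section eta

variable {F : Type*} [Field F] [Fintype F] [DecidableEq F]

/-- the quadratic character, complex valued -/
def et (t : F) : ℂ := ((quadraticChar F t : ℤ) : ℂ)

theorem et_mul (s t : F) : et (s * t) = et s * et t := by
  unfold et
  rw [map_mul]
  push_cast
  rfl

theorem et_zero : et (0 : F) = 0 := by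
  unfold et
  rw [quadraticChar_zero]
  simp

theorem et_one : et (1 : F) = 1 := by
  unfold et
  rw [map_one]
  simp

theorem et_sq {t : F} (ht : t ≠ 0) : et t * et t = 1 := by
  unfold et
  have h := quadraticChar_sq_one ht
  rw [← Int.cast_mul, ← pow_two, h]
  simp

theorem et_inv {t : F} (ht : t ≠ 0) : et t⁻¹ = et t := by
  have h1 : et t⁻¹ * et t = 1 := by rw [← et_mul, inv_mul_cancel₀ ht, et_one]
  have h2 := et_sq ht
  calc et t⁻¹ = et t⁻¹ * (et t * et t) := by rw [h2, mul_one]
    _ = (et t⁻¹ * et t) * et t := by ring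
    _ = et t := by rw [h1, one_mul]

theorem et_sum (h2 : (2 : F) ≠ 0) : ∑ t : F, et t = 0 := by
  unfold et
  rw [← Int.cast_sum, quadraticChar_sum_zero]
  · simp
  · intro h
    apply h2
    have := ringChar.Nat.cast_ringChar (R := F)
    rw [h] at this
    exact_mod_cast this

theorem et_exists (h2 : (2 : F) ≠ 0) : ∃ a : F, a ≠ 0 ∧ et a = -1 := by
  obtain ⟨a, ha⟩ := quadraticChar_exists_neg_one (F := F) (by
    intro h
    apply h2
    have := ringChar.Nat.cast_ringChar (R := F)
    rw [h] at this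
    exact_mod_cast this)
  refine ⟨a, ?_, ?_⟩
  · rintro rfl
    rw [quadraticChar_zero] at ha
    norm_num at ha
  · unfold et
    rw [ha]
    simp

end eta

variable {F V : Type*} [Field F] [AddCommGroup V] [Module F V]

/-- the singular vectors -/
abbrev Sg (Q : QuadraticForm F V) : Type _ := {v : V // Q v = 0}

variable {Q : QuadraticForm F V}

/-- the action of an isometry on the singular vectors -/
def act (g : V ≃ₗ[F] V) (hg : g ∈ O Q) : Equiv.Perm (Sg Q) where
  toFun v := ⟨g v.1, by rw [hg, v.2]⟩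
  invFun v := ⟨g.symm v.1, by rw [← hg (g.symm v.1), g.apply_symm_apply, v.2]⟩
  left_inv v := Subtype.ext (g.symm_apply_apply _)
  right_inv v := Subtype.ext (g.apply_symm_apply _)

theorem act_coe (g : V ≃ₗ[F] V) (hg : g ∈ O Q) (v : Sg Q) : (act g hg v).1 = g v.1 := rfl

/-- scalar multiplication on the singular vectors -/
def scl (a : F) (v : Sg Q) : Sg Q := ⟨a • v.1, by rw [QuadraticMap.map_smul, v.2, smul_zero]⟩

theorem scl_coe (a : F) (v : Sg Q) : (scl a v).1 = a • v.1 := rfl

section kernel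

variable [Fintype F] [DecidableEq F] [Fintype (Sg Q)]

/-- the sum `∑ w, η(B(v, w)) η(B(v', w))` -/
def S (Q : QuadraticForm F V) [Fintype (Sg Q)] (v v' : V) : ℂ :=
  ∑ w : Sg Q, et (polar Q v w.1) * et (polar Q v' w.1)

theorem S_map {g : V ≃ₗ[F] V} (hg : g ∈ O Q) (v v' : V) : S Q (g v) (g v') = S Q v v' := by
  unfold S
  rw [← Equiv.sum_comp (act g hg)]
  refine Finset.sum_congr rfl fun w _ => ?_
  rw [act_coe, polar_map hg, polar_map hg]

theorem S_comm (v v' : V) : S Q v v' = S Q v' v := by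
  unfold S
  exact Finset.sum_congr rfl fun w _ => mul_comm _ _

theorem S_smul_right (a : F) (v v' : V) : S Q v (a • v') = et a * S Q v v' := by
  unfold S
  rw [Finset.mul_sum]
  refine Finset.sum_congr rfl fun w _ => ?_
  rw [polar_smul_left, smul_eq_mul, et_mul]
  ring

theorem S_zero_left (v' : V) : S Q 0 v' = 0 := by
  unfold S
  refine Finset.sum_eq_zero fun w _ => ?_
  rw [polar_zero_left, et_zero, zero_mul]

/-- orthogonal independent vectors -/
theorem S_orth (h2 : (2 : F) ≠ 0) (hQ : Nondeg Q) {v v' : V} (hv' : Q v' = 0)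
    (h : polar Q v v' = 0) (hi : ∀ c : F, v' ≠ c • v) : S Q v v' = 0 := by
  obtain ⟨y0, hy0, hy1⟩ := exists_sep hQ hi
  obtain ⟨a, ha, hea⟩ := et_exists h2
  -- the partner of `v'` orthogonal to `v`
  set y := y0 - Q y0 • v' with hy
  have hvy : polar Q v y = 0 := by
    rw [hy, polar_sub_right, polar_smul_right, hy0, h, smul_zero, sub_zero]
  have hv'v' : polar Q v' v' = 0 := polar_self_of_sing hv'
  have hv'y : polar Q v' y = 1 := by
    rw [hy, polar_sub_right, polar_smul_right, hy1, hv'v', smul_zero, sub_zero]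
  have hyv' : polar Q y v' = 1 := by rw [polar_comm, hv'y]
  have hQy : Q y = 0 := by
    have h1 : y = y0 + (-(Q y0)) • v' := by rw [hy, neg_smul, sub_eq_add_neg]
    rw [h1, Q_add, QuadraticMap.map_smul, hv', polar_smul_right, polar_comm, hy1]
    simp
  -- the two reflections
  have hr1 : Q (v' - y) ≠ 0 := by
    have h1 : v' - y = v' + (-1 : F) • y := by rw [neg_one_smul, sub_eq_add_neg]
    rw [h1, Q_add, QuadraticMap.map_smul, hv', hQy, polar_smul_right, hv'y]
    simp
  have hr2 : Q (y - a • v') ≠ 0 := by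
    have h1 : y - a • v' = y + (-a) • v' := by rw [neg_smul, sub_eq_add_neg]
    rw [h1, Q_add, QuadraticMap.map_smul, hv', hQy, polar_smul_right, hyv']
    simpa using ha
  have e1 : refl Q (v' - y) hr1 v' = y := refl_sub_apply (by rw [hv', hQy]) hr1
  have e2 : refl Q (y - a • v') hr2 y = a • v' :=
    refl_sub_apply (by rw [QuadraticMap.map_smul, hv', hQy, smul_zero]) hr2
  have f1 : refl Q (v' - y) hr1 v = v := by
    rw [refl_apply]
    have : polar Q (v' - y) v = 0 := by
      rw [polar_sub_left, polar_comm, h, polar_comm, hvy, sub_zero]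
    simp [this]
  have f2 : refl Q (y - a • v') hr2 v = v := by
    rw [refl_apply]
    have : polar Q (y - a • v') v = 0 := by
      rw [polar_sub_left, polar_smul_left, polar_comm, hvy, polar_comm, h, smul_zero, sub_zero]
    simp [this]
  have h3 : S Q v v' = S Q v (a • v') := by
    rw [← S_map (refl_mem_O hr1) v v', e1, f1, ← S_map (refl_mem_O hr2) v y, e2, f2]
  rw [S_smul_right, hea] at h3
  linear_combination (1 / 2 : ℂ) * h3

/-- `P v w = ∑ a, η(a) [w = a v]` -/
def P (Q : QuadraticForm F V) [DecidableEq V] (v w : Sg Q) : ℂ := ∑ a : F, if w.1 = a • v.1 then et a else 0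

theorem P_zero [DecidableEq V] (h2 : (2 : F) ≠ 0) (v w : Sg Q) (hv : v.1 = 0) : P Q v w = 0 := by
  unfold P
  by_cases hw : w.1 = 0
  · rw [Finset.sum_congr rfl fun a _ => by rw [hv, smul_zero, if_pos hw], et_sum h2]
  · exact Finset.sum_eq_zero fun a _ => by rw [hv, smul_zero, if_neg hw]

theorem P_smul [DecidableEq V] {v w : Sg Q} (hv : v.1 ≠ 0) {c : F} (h : w.1 = c • v.1) : P Q v w = et c := by
  unfold P
  rw [Finset.sum_eq_single c]
  · rw [if_pos h]
  · intro a _ ha
    rw [if_neg]
    intro h1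
    rw [h] at h1
    have : (c - a) • v.1 = 0 := by rw [sub_smul, h1, sub_self]
    rcases smul_eq_zero.1 this with h3 | h3
    · exact ha (sub_eq_zero.1 h3).symm
    · exact hv h3
  · intro h1
    exact absurd (Finset.mem_univ _) h1

theorem P_of_not [DecidableEq V] {v w : Sg Q} (h : ∀ c : F, w.1 ≠ c • v.1) : P Q v w = 0 :=
  Finset.sum_eq_zero fun a _ => by rw [if_neg (h a)]

/-- the kernel of `A` -/
def A (Q : QuadraticForm F V) (v w : Sg Q) : ℂ := et (polar Q v.1 w.1)

theorem A_comm (v w : Sg Q) : A Q v w = A Q w v := by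
  unfold A
  rw [polar_comm]

theorem AA [DecidableEq V] (h2 : (2 : F) ≠ 0) (hG : Good Q) {x y : V} (hxy : Hyp Q x y) (v v' : Sg Q) :
    ∑ w : Sg Q, A Q v w * A Q w v' = S Q x x * P Q v v' + S Q x y * A Q v v' := by
  have h0 : ∑ w : Sg Q, A Q v w * A Q w v' = S Q v.1 v'.1 := by
    unfold A S
    exact Finset.sum_congr rfl fun w _ => by rw [polar_comm Q w.1 v'.1]
  rw [h0]
  by_cases hv : v.1 = 0
  · rw [P_zero h2 v v' hv, hv, S_zero_left]
    unfold A
    rw [hv, polar_zero_left, et_zero]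
    ring
  by_cases hm : ∃ c : F, v'.1 = c • v.1
  · obtain ⟨c, hc⟩ := hm
    rw [P_smul hv hc]
    unfold A
    rw [hc, polar_smul_right, polar_self_of_sing v.2, smul_zero, et_zero, S_smul_right]
    obtain ⟨g, hg, hgx⟩ := hG.trans_sing hxy.left v.2 hxy.left_ne hv
    rw [← S_map (E_le_O hg) x x, hgx]
    ring
  push Not at hm
  rw [P_of_not hm]
  by_cases hB : polar Q v.1 v'.1 = 0
  · unfold A
    rw [S_orth h2 hG.nondeg v'.2 hB hm, hB, et_zero]
    ring
  · have hh : Hyp Q v.1 ((polar Q v.1 v'.1)⁻¹ • v'.1) := by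
      refine ⟨v.2, ?_, ?_⟩
      · rw [QuadraticMap.map_smul, v'.2, smul_zero]
      · rw [polar_smul_right, smul_eq_mul, inv_mul_cancel₀ hB]
    obtain ⟨g, hg, hgx, hgy⟩ := hG.trans_hyp hxy hh
    have h3 : S Q x y = et (polar Q v.1 v'.1) * S Q v.1 v'.1 := by
      rw [← S_map (E_le_O hg) x y, hgx, hgy, S_smul_right, et_inv hB]
    have h4 := et_sq hB
    unfold A
    rw [h3]
    linear_combination (-S Q v.1 v'.1) * h4

theorem A_smul_right (v w : Sg Q) (a : F) : A Q v (scl a w) = et a * A Q v w := by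
  unfold A
  rw [scl_coe, polar_smul_right, smul_eq_mul, et_mul]

theorem sum_units_et : ∑ a : F, et a * et a = (Fintype.card F : ℂ) - 1 := by
  have h1 : ∀ a : F, et a * et a = 1 - if a = 0 then 1 else 0 := by
    intro a
    by_cases ha : a = 0
    · rw [if_pos ha, ha, et_zero]
      ring
    · rw [if_neg ha, et_sq ha]
      ring
  rw [Finset.sum_congr rfl fun a _ => h1 a, Finset.sum_sub_distrib, Finset.sum_ite_eq']
  simp

/-- sum against `P` -/
theorem sum_P [DecidableEq V] (v : Sg Q) (f : Sg Q → ℂ) :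
    ∑ w : Sg Q, P Q v w * f w = ∑ a : F, et a * f (scl a v) := by
  unfold P
  have h1 : ∀ w : Sg Q, (∑ a : F, if w.1 = a • v.1 then et a else 0) * f w =
      ∑ a : F, if w = scl a v then et a * f w else 0 := by
    intro w
    rw [Finset.sum_mul]
    refine Finset.sum_congr rfl fun a _ => ?_
    by_cases h : w = scl a v
    · rw [if_pos h, if_pos (by rw [h, scl_coe])]
    · rw [if_neg h, if_neg (fun h3 : w.1 = a • v.1 => h (Subtype.ext h3)), zero_mul]
  rw [Finset.sum_congr rfl fun w _ => h1 w, Finset.sum_comm]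
  refine Finset.sum_congr rfl fun a _ => ?_
  rw [Finset.sum_ite_eq']
  simp

/-- symmetry of `P` -/
theorem P_comm [DecidableEq V] (h2 : (2 : F) ≠ 0) (v w : Sg Q) : P Q v w = P Q w v := by
  by_cases hv : v.1 = 0
  · rw [P_zero h2 v w hv]
    by_cases hw : w.1 = 0
    · rw [P_zero h2 w v hw]
    · rw [P_smul hw (c := 0) (by rw [hv, zero_smul]), et_zero]
  by_cases hw : w.1 = 0
  · rw [P_zero h2 w v hw, P_smul hv (c := 0) (by rw [hw, zero_smul]), et_zero]
  by_cases hm : ∃ c : F, w.1 = c • v.1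
  · obtain ⟨c, hc⟩ := hm
    have hc0 : c ≠ 0 := by
      rintro rfl
      exact hw (by rw [hc, zero_smul])
    rw [P_smul hv hc, P_smul hw (c := c⁻¹) (by rw [hc, smul_smul, inv_mul_cancel₀ hc0, one_smul]), et_inv hc0]
  · push Not at hm
    rw [P_of_not hm, P_of_not]
    intro c hc
    have hc0 : c ≠ 0 := by
      rintro rfl
      exact hv (by rw [hc, zero_smul])
    exact hm c⁻¹ (by rw [hc, smul_smul, inv_mul_cancel₀ hc0, one_smul])

theorem PA [DecidableEq V] (v v' : Sg Q) :
    ∑ w : Sg Q, P Q v w * A Q w v' = ((Fintype.card F : ℂ) - 1) * A Q v v' := by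
  rw [sum_P v fun w => A Q w v']
  have h1 : ∀ a : F, et a * A Q (scl a v) v' = (et a * et a) * A Q v v' := by
    intro a
    rw [A_comm (scl a v) v', A_smul_right, A_comm v' v]
    ring
  rw [Finset.sum_congr rfl fun a _ => h1 a, ← Finset.sum_mul, sum_units_et]

theorem AP [DecidableEq V] (h2 : (2 : F) ≠ 0) (v v' : Sg Q) :
    ∑ w : Sg Q, A Q v w * P Q w v' = ((Fintype.card F : ℂ) - 1) * A Q v v' := by
  rw [A_comm v v', ← PA v' v]
  refine Finset.sum_congr rfl fun w _ => ?_
  rw [P_comm h2 w v', A_comm v w]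
  ring

theorem P_scl [DecidableEq V] (h2 : (2 : F) ≠ 0) (v w : Sg Q) (a : F) : P Q v (scl a w) = et a * P Q v w := by
  by_cases ha : a = 0
  · subst ha
    rw [et_zero, zero_mul, P_comm h2, P_zero h2]
    rw [scl_coe, zero_smul]
  by_cases hv : v.1 = 0
  · rw [P_zero h2 _ _ hv, P_zero h2 _ _ hv, mul_zero]
  by_cases hm : ∃ c : F, w.1 = c • v.1
  · obtain ⟨c, hc⟩ := hm
    rw [P_smul hv hc, P_smul hv (c := a * c) (by rw [scl_coe, hc, smul_smul]), et_mul]
  · push Not at hm
    rw [P_of_not hm, P_of_not, mul_zero]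
    intro c hc
    apply hm (a⁻¹ * c)
    rw [scl_coe] at hc
    rw [← smul_smul, ← hc, smul_smul, inv_mul_cancel₀ ha, one_smul]

theorem PP [DecidableEq V] (h2 : (2 : F) ≠ 0) (v v' : Sg Q) :
    ∑ w : Sg Q, P Q v w * P Q w v' = ((Fintype.card F : ℂ) - 1) * P Q v v' := by
  rw [sum_P v fun w => P Q w v']
  have h1 : ∀ a : F, et a * P Q (scl a v) v' = (et a * et a) * P Q v v' := by
    intro a
    rw [P_comm h2 (scl a v) v', P_scl h2, P_comm h2 v' v]
    ring
  rw [Finset.sum_congr rfl fun a _ => h1 a, ← Finset.sum_mul, sum_units_et]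

/-- the trace of `P` -/
theorem trP [DecidableEq V] (h2 : (2 : F) ≠ 0) : ∑ v : Sg Q, P Q v v = (Fintype.card (Sg Q) : ℂ) - 1 := by
  have h1 : ∀ v : Sg Q, P Q v v = 1 - if v = ⟨0, QuadraticMap.map_zero Q⟩ then 1 else 0 := by
    intro v
    by_cases hv : v.1 = 0
    · rw [P_zero h2 v v hv, if_pos (Subtype.ext hv), sub_self]
    · rw [P_smul hv (c := 1) (by rw [one_smul]), et_one, if_neg (fun h => hv (congrArg Subtype.val h)), sub_zero]
  rw [Finset.sum_congr rfl fun v _ => h1 v, Finset.sum_sub_distrib, Finset.sum_ite_eq']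
  simp

theorem trA : ∑ v : Sg Q, A Q v v = 0 := by
  refine Finset.sum_eq_zero fun v _ => ?_
  unfold A
  rw [polar_self_of_sing v.2, et_zero]

end kernel

end Cfsg.Agent.H78.Inc.Om
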